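import Cfsg.Agent.GLClassCount.Classes

/-!
The primary decomposition is unique, and behaves well under scaling.
-/

set_option autoImplicit false

namespace CfsgLib.GLClassCount

open Polynomial Module

variable {F : Type*} [Field F]

theorem card_quot [Fintype F] {f : F[X]} (hf : f.Monic) :
    Nat.card (F[X] ⧸ Ideal.span {f}) = Fintype.card F ^ f.natDegree := by
  have := hf.finite_quotient
  rw [Module.natCard_eq_pow_finrank (K := F), finrank_quotient_span_eq_natDegree, Nat.card_eq_fintype_card]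

theorem card_torsion_same [Fintype F] {P : F[X]} (hP : P.Monic) (k e : ℕ) :
    Nat.card {x : F[X] ⧸ Ideal.span {P ^ e} // (P ^ k) • x = 0} = Fintype.card F ^ (P.natDegree * min k e) := by
  rcases le_or_gt e k with h | h
  · rw [min_eq_right h, Nat.card_congr (Equiv.subtypeUnivEquiv fun x => ?_), card_quot (hP.pow e), natDegree_pow, mul_comm]
    obtain ⟨u, rfl⟩ := Ideal.Quotient.mk_surjective x
    show Ideal.Quotient.mk _ (P ^ k * u) = 0
    rw [Ideal.Quotient.eq_zero_iff_mem, Ideal.mem_span_singleton]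
    exact Dvd.dvd.mul_right (pow_dvd_pow P h) u
  · rw [min_eq_left h.le]
    obtain ⟨d, rfl⟩ : ∃ d, e = d + k := ⟨e - k, by omega⟩
    let L : (F[X] ⧸ Ideal.span {P ^ k}) →ₗ[F[X]] (F[X] ⧸ Ideal.span {P ^ (d + k)}) :=
      Submodule.mapQ _ _ (LinearMap.mulLeft F[X] (P ^ d)) (by
        intro x hx
        rw [Ideal.mem_span_singleton] at hx
        rw [Submodule.mem_comap, LinearMap.mulLeft_apply, Ideal.mem_span_singleton, pow_add]
        exact mul_dvd_mul_left _ hx)
    have hL : ∀ u, L (Ideal.Quotient.mk _ u) = Ideal.Quotient.mk _ (P ^ d * u) := fun u => rfl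
    have hinj : Function.Injective L := (injective_iff_map_eq_zero L).mpr fun x hx => by
      obtain ⟨u, rfl⟩ := Ideal.Quotient.mk_surjective x
      rw [hL, Ideal.Quotient.eq_zero_iff_mem, Ideal.mem_span_singleton, pow_add] at hx
      rw [Ideal.Quotient.eq_zero_iff_mem, Ideal.mem_span_singleton]
      exact (mul_dvd_mul_iff_left (pow_ne_zero d hP.ne_zero)).mp hx
    rw [mul_comm P.natDegree, ← natDegree_pow, ← card_quot (hP.pow k)]
    refine (Nat.card_eq_of_bijective (fun x => (⟨L x, ?_⟩ : {x : F[X] ⧸ Ideal.span {P ^ (d + k)} // (P ^ k) • x = 0}))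
      ⟨fun a b hab => hinj (congrArg Subtype.val hab), ?_⟩).symm
    · obtain ⟨u, rfl⟩ := Ideal.Quotient.mk_surjective x
      rw [hL]
      show Ideal.Quotient.mk _ (P ^ k * (P ^ d * u)) = 0
      rw [Ideal.Quotient.eq_zero_iff_mem, Ideal.mem_span_singleton, ← mul_assoc, ← pow_add, add_comm d k]
      exact dvd_mul_right _ _
    · rintro ⟨x, hx⟩
      obtain ⟨u, rfl⟩ := Ideal.Quotient.mk_surjective x
      have hx' : Ideal.Quotient.mk (Ideal.span {P ^ (d + k)}) (P ^ k * u) = 0 := hx
      rw [Ideal.Quotient.eq_zero_iff_mem, Ideal.mem_span_singleton, pow_add, mul_comm (P ^ d),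
        mul_dvd_mul_iff_left (pow_ne_zero k hP.ne_zero)] at hx'
      obtain ⟨v, rfl⟩ := hx'
      exact ⟨Ideal.Quotient.mk _ v, Subtype.ext (hL v)⟩

theorem card_torsion_other {P p : F[X]} (h : IsCoprime P p) (k e : ℕ) :
    Nat.card {x : F[X] ⧸ Ideal.span {p ^ e} // (P ^ k) • x = 0} = 1 := by
  refine Nat.card_eq_one_iff_unique.mpr ⟨⟨fun a b => ?_⟩, ⟨⟨0, smul_zero _⟩⟩⟩
  obtain ⟨s, t, hst⟩ := h.pow (m := k) (n := e)
  have key : ∀ x : F[X] ⧸ Ideal.span {p ^ e}, (P ^ k) • x = 0 → x = 0 := fun x hx => by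
    have hp0 : (p ^ e) • x = 0 := by
      obtain ⟨u, rfl⟩ := Ideal.Quotient.mk_surjective x
      show Ideal.Quotient.mk _ (p ^ e * u) = 0
      rw [Ideal.Quotient.eq_zero_iff_mem, Ideal.mem_span_singleton]
      exact dvd_mul_right _ _
    rw [← one_smul F[X] x, ← hst, add_smul, mul_smul, mul_smul, hx, hp0, smul_zero, smul_zero, add_zero]
  exact Subtype.ext ((key _ a.2).trans (key _ b.2).symm)

/-- The number of elements killed by a power of a prime. -/
theorem card_torsion [Fintype F] {M : Type*} [AddCommGroup M] [Module F[X] M] {m : ℕ} {p : Fin m → F[X]} {e : Fin m → ℕ}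
    (hp : ∀ i, Irreducible (p i) ∧ (p i).Monic ∧ e i ≠ 0) (h : HasType (M := M) p e) {P : F[X]} (hP : Irreducible P)
    (hPm : P.Monic) (k : ℕ) [DecidableEq F[X]] :
    Nat.card {x : M // (P ^ k) • x = 0} =
      Fintype.card F ^ (P.natDegree * ∑ i ∈ Finset.univ.filter (fun i => p i = P), min k (e i)) := by
  obtain ⟨φ⟩ := h
  let E : {x : M // (P ^ k) • x = 0} ≃ (∀ i, {y : F[X] ⧸ Ideal.span {p i ^ e i} // (P ^ k) • y = 0}) :=
    { toFun := fun x i => ⟨φ x.1 i, by rw [← Pi.smul_apply, ← map_smul, x.2, map_zero]; rfl⟩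
      invFun := fun y => ⟨φ.symm fun i => (y i).1, by
        rw [← map_smul, φ.symm.map_eq_zero_iff]; exact funext fun i => (y i).2⟩
      left_inv := fun x => Subtype.ext (φ.symm_apply_apply x.1)
      right_inv := fun y => funext fun i => Subtype.ext (congrFun (φ.apply_symm_apply _) i) }
  rw [Nat.card_congr E, Nat.card_pi, Finset.mul_sum, ← Finset.prod_pow_eq_pow_sum, Finset.prod_filter]
  refine Finset.prod_congr rfl fun i _ => ?_
  split_ifs with hi
  · subst hi; exact card_torsion_same hPm k (e i)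
  · refine card_torsion_other ((hP.coprime_iff_not_dvd).mpr fun hd => hi ?_) k (e i)
    exact (eq_of_monic_of_associated hPm (hp i).2.1 (hP.associated_of_dvd (hp i).1 hd)).symm

/-- Isomorphic modules have the same code. -/
theorem encode_eq_of_equiv [Fintype F] {M M' : Type*} [AddCommGroup M] [Module F[X] M] [AddCommGroup M'] [Module F[X] M']
    {n m m' : ℕ} {p : Fin m → F[X]} {e : Fin m → ℕ} {p' : Fin m' → F[X]} {e' : Fin m' → ℕ}
    (hp : ∀ i, Irreducible (p i) ∧ (p i).Monic ∧ e i ≠ 0) (hp' : ∀ i, Irreducible (p' i) ∧ (p' i).Monic ∧ e' i ≠ 0)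
    (h : HasType (M := M) p e) (h' : HasType (M := M') p' e') (φ : M ≃ₗ[F[X]] M') :
    encode p e n = encode p' e' n := by
  classical
  funext j
  rw [encode, encode, Finset.prod_eq_multiset_prod, Finset.prod_eq_multiset_prod]
  congr 1
  ext P
  by_cases hP : Irreducible P ∧ P.Monic
  · have hS : ∀ k, (∑ i ∈ Finset.univ.filter (fun i => p i = P), min k (e i)) =
        ∑ i ∈ Finset.univ.filter (fun i => p' i = P), min k (e' i) := fun k => by
      have h1 := card_torsion hp h hP.1 hP.2 k
      have h2 := card_torsion hp' h' hP.1 hP.2 k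
      have h3 : Nat.card {x : M // (P ^ k) • x = 0} = Nat.card {x : M' // (P ^ k) • x = 0} :=
        Nat.card_congr (φ.toEquiv.subtypeEquiv fun x => by
          show _ ↔ (P ^ k) • φ x = 0
          rw [← map_smul, φ.map_eq_zero_iff])
      rw [h1, h2] at h3
      exact Nat.eq_of_mul_eq_mul_left hP.1.natDegree_pos (Nat.pow_right_injective Fintype.one_lt_card h3)
    have key : ∀ {m : ℕ} (p : Fin m → F[X]) (e : Fin m → ℕ),
        Multiset.count P ((Finset.univ.filter fun i => e i = (j : ℕ) + 1).val.map p) +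
          ((∑ i ∈ Finset.univ.filter (fun i => p i = P), min (j : ℕ) (e i)) +
            ∑ i ∈ Finset.univ.filter (fun i => p i = P), min ((j : ℕ) + 2) (e i)) =
          2 * ∑ i ∈ Finset.univ.filter (fun i => p i = P), min ((j : ℕ) + 1) (e i) := fun p e => by
      rw [Multiset.count_map, ← Finset.filter_val, ← Finset.card_def, Finset.filter_filter,
        show (Finset.univ.filter fun i => e i = (j : ℕ) + 1 ∧ P = p i) =
          (Finset.univ.filter fun i => p i = P).filter (fun i => e i = (j : ℕ) + 1) by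
          rw [Finset.filter_filter]; exact Finset.filter_congr fun i _ => ⟨fun h => ⟨h.2.symm, h.1⟩, fun h => ⟨h.2, h.1.symm⟩⟩,
        Finset.card_filter, ← Finset.sum_add_distrib, ← Finset.sum_add_distrib, Finset.mul_sum]
      exact Finset.sum_congr rfl fun i _ => by split_ifs <;> omega
    have h1 := key p e
    have h2 := key p' e'
    rw [hS, hS, hS] at h1
    omega
  · rw [Multiset.count_eq_zero.mpr, Multiset.count_eq_zero.mpr] <;> intro hmem <;>
      obtain ⟨i, -, rfl⟩ := Multiset.mem_map.mp hmem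
    · exact hP ⟨(hp' i).1, (hp' i).2.1⟩
    · exact hP ⟨(hp i).1, (hp i).2.1⟩

/-- Substitution `X ↦ c X`. -/
noncomputable def dilate (c : Fˣ) : F[X] ≃+* F[X] :=
  (Polynomial.algEquivCMulXAddC (c : F) 0).toRingEquiv

theorem dilate_apply (c : Fˣ) (f : F[X]) : dilate c f = f.comp (C (c : F) * X) := by
  show aeval (C (c : F) * X + C (0 : F)) f = _
  rw [map_zero, add_zero]
  rfl

theorem span_dilate (c : Fˣ) {p : F[X]} :
    Ideal.span {scaleRoots p (c : F)} = Ideal.span {dilate c⁻¹ p} := by
  refine Ideal.span_singleton_eq_span_singleton.mpr ?_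
  have h : scaleRoots p (c : F) = C ((c : F) ^ p.natDegree) * dilate c⁻¹ p := by
    ext i
    rw [coeff_scaleRoots, coeff_C_mul, dilate_apply, comp_C_mul_X_coeff, Units.val_inv_eq_inv_val, inv_pow]
    rcases le_or_gt i p.natDegree with hi | hi
    · conv_rhs => rw [← Nat.sub_add_cancel hi, pow_add]
      field_simp
    · rw [coeff_eq_zero_of_natDegree_lt hi]; ring
  rw [h]
  exact associated_unit_mul_left _ _ (isUnit_C.mpr ((Units.isUnit c).pow _))

/-- The decomposition of a scaled endomorphism. -/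
theorem hasType_smul {V : Type*} [AddCommGroup V] [Module F V] (a : V →ₗ[F] V) (c : Fˣ) {m : ℕ} {p : Fin m → F[X]}
    {e : Fin m → ℕ} (h : HasType (M := Module.AEval' a) p e) :
    HasType (M := Module.AEval' ((c : F) • a)) (fun i => scaleRoots (p i) (c : F)) e := by
  obtain ⟨φ⟩ := h
  have hmap : ∀ i, Ideal.span {scaleRoots (p i) (c : F) ^ e i} =
      (Ideal.span {p i ^ e i}).map ((dilate c⁻¹ : F[X] ≃+* F[X]) : F[X] →+* F[X]) := fun i => by
    rw [← Ideal.span_singleton_pow, ← Ideal.span_singleton_pow, Ideal.map_pow, Ideal.map_span, Set.image_singleton, span_dilate]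
    rfl
  let q : ∀ i, (F[X] ⧸ Ideal.span {p i ^ e i}) ≃+* (F[X] ⧸ Ideal.span {scaleRoots (p i) (c : F) ^ e i}) :=
    fun i => Ideal.quotientEquiv _ _ (dilate c⁻¹) (hmap i)
  let E : Module.AEval' ((c : F) • a) ≃+ ∀ i, F[X] ⧸ Ideal.span {scaleRoots (p i) (c : F) ^ e i} :=
    ((Module.AEval'.of ((c : F) • a)).symm.toAddEquiv.trans (Module.AEval'.of a).toAddEquiv).trans
      (φ.toAddEquiv.trans (AddEquiv.piCongrRight fun i => (q i).toAddEquiv))
  refine ⟨{ E with map_smul' := fun f x => funext fun i => ?_ }⟩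
  obtain ⟨v, rfl⟩ := (Module.AEval'.of ((c : F) • a)).surjective x
  show q i (φ (Module.AEval'.of a ((Module.AEval'.of ((c : F) • a)).symm (f • Module.AEval'.of _ v))) i) =
    f • q i (φ (Module.AEval'.of a ((Module.AEval'.of ((c : F) • a)).symm (Module.AEval'.of _ v))) i)
  rw [LinearEquiv.symm_apply_apply]
  have hf : (Module.AEval'.of ((c : F) • a)).symm (f • Module.AEval'.of ((c : F) • a) v) =
      (Module.AEval'.of a).symm (dilate c f • Module.AEval'.of a v) := by
    rw [← Module.AEval.of_aeval_smul, ← Module.AEval.of_aeval_smul, LinearEquiv.symm_apply_apply, LinearEquiv.symm_apply_apply,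
      dilate_apply, aeval_comp, map_mul, aeval_C, aeval_X, ← Algebra.smul_def]
  rw [hf, LinearEquiv.apply_symm_apply, map_smul, Pi.smul_apply]
  obtain ⟨u, hu⟩ := Ideal.Quotient.mk_surjective (φ (Module.AEval'.of a v) i)
  rw [← hu]
  show q i (Ideal.Quotient.mk _ (dilate c f * u)) = Ideal.Quotient.mk _ f * q i (Ideal.Quotient.mk _ u)
  rw [Ideal.quotientEquiv_mk, Ideal.quotientEquiv_mk, map_mul, map_mul]
  congr 2
  show dilate c⁻¹ (dilate c f) = f
  rw [dilate_apply, dilate_apply, comp_assoc, mul_comp, C_comp, X_comp, ← mul_assoc, ← C_mul, Units.mul_inv, C_1, one_mul, comp_X]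

theorem irreducible_scaleRoots (c : Fˣ) {p : F[X]} (hp : Irreducible p) : Irreducible (scaleRoots p (c : F)) := by
  have h := Ideal.span_singleton_eq_span_singleton.mp (span_dilate c (p := p))
  exact h.symm.irreducible (hp.map (dilate c⁻¹))

theorem encode_scaleRoots (c : F) {m n : ℕ} (p : Fin m → F[X]) (e : Fin m → ℕ) (j : Fin n) (hp : ∀ i, (p i).Monic) :
    encode (fun i => scaleRoots (p i) c) e n j = scaleRoots (encode p e n j) c := by
  classical
  rw [encode, encode]
  generalize Finset.univ.filter (fun i => e i = (j : ℕ) + 1) = s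
  induction s using Finset.induction_on with
  | empty => simp [one_scaleRoots]
  | insert a s has ih =>
    rw [Finset.prod_insert has, Finset.prod_insert has, ih]
    exact (mul_scaleRoots' _ _ _ (mul_ne_zero (by rw [(hp a).leadingCoeff]; exact one_ne_zero)
      (by rw [(monic_prod_of_monic s _ fun i _ => hp i).leadingCoeff]; exact one_ne_zero))).symm

end CfsgLib.GLClassCount
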