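import Cfsg.Agent.GLClassCount.SLBounds
import Cfsg.Agent.GLClassCount.Unique
import Mathlib.LinearAlgebra.Matrix.ProjectiveSpecialLinearGroup
import Mathlib.GroupTheory.GroupAction.Quotient
import Mathlib.Algebra.Polynomial.Expand

/-!
Classes of the projective special linear group: classes fixed by central translations.
-/

set_option autoImplicit false

namespace CfsgLib.GLClassCount

open Polynomial Module Finset

section Burnside

variable {G : Type*} [Group G]

/-- Translation of classes by a central element. -/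
def trans (z : Subgroup.center G) : ConjClasses G → ConjClasses G :=
  Quotient.map (fun g => z.1 * g) fun a b h => by
    obtain ⟨u, hu⟩ := isConj_iff.mp h
    refine isConj_iff.mpr ⟨u, ?_⟩
    rw [← hu, ← mul_assoc u, Subgroup.mem_center_iff.mp z.2 u]
    group

theorem trans_mk (z : Subgroup.center G) (g : G) : trans z (ConjClasses.mk g) = ConjClasses.mk (z.1 * g) := rfl

theorem card_center_mul [Finite G] [Fintype (Subgroup.center G)] :
    Nat.card (Subgroup.center G) * Nat.card (ConjClasses (G ⧸ Subgroup.center G)) =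
      ∑ z : Subgroup.center G, Nat.card {C : ConjClasses G // trans z C = C} := by
  classical
  letI : MulAction (Subgroup.center G) (ConjClasses G) :=
    { smul := trans
      one_smul := fun C => by
        obtain ⟨g, rfl⟩ := ConjClasses.mk_surjective C
        show ConjClasses.mk (1 * g) = _
        rw [one_mul]
      mul_smul := fun z w C => by
        obtain ⟨g, rfl⟩ := ConjClasses.mk_surjective C
        show ConjClasses.mk (z.1 * w.1 * g) = ConjClasses.mk (z.1 * (w.1 * g))
        rw [mul_assoc] }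
  haveI : Fintype (ConjClasses G) := Fintype.ofFinite _
  have h := MulAction.sum_card_fixedBy_eq_card_orbits_mul_card_group (Subgroup.center G) (ConjClasses G)
  let π : ConjClasses G → ConjClasses (G ⧸ Subgroup.center G) := ConjClasses.map (QuotientGroup.mk' _)
  have hπ : ∀ C C', MulAction.orbitRel (Subgroup.center G) (ConjClasses G) C C' → π C = π C' := by
    rintro _ C' ⟨z, rfl⟩
    obtain ⟨g, rfl⟩ := ConjClasses.mk_surjective C'
    show ConjClasses.mk (QuotientGroup.mk' (Subgroup.center G) (z.1 * g)) = ConjClasses.mk (QuotientGroup.mk' _ g)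
    rw [map_mul, (QuotientGroup.eq_one_iff z.1).mpr z.2 |> fun (e : QuotientGroup.mk' (Subgroup.center G) z.1 = 1) => e, one_mul]
  have hbij : Function.Bijective (Quotient.lift π hπ) := by
    constructor
    · intro x y
      induction x using Quotient.inductionOn with | h C => ?_
      induction y using Quotient.inductionOn with | h C' => ?_
      intro he
      obtain ⟨a, rfl⟩ := ConjClasses.mk_surjective C
      obtain ⟨b, rfl⟩ := ConjClasses.mk_surjective C'
      have he' : IsConj (QuotientGroup.mk' (Subgroup.center G) a) (QuotientGroup.mk' _ b) :=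
        ConjClasses.mk_eq_mk_iff_isConj.mp he
      obtain ⟨u, hu⟩ := isConj_iff.mp he'
      obtain ⟨u, rfl⟩ := QuotientGroup.mk'_surjective _ u
      rw [← map_inv, ← map_mul, ← map_mul, QuotientGroup.mk'_eq_mk'] at hu
      obtain ⟨z, hz, hzb⟩ := hu
      refine Quotient.sound ⟨⟨z, hz⟩⁻¹, ?_⟩
      show ConjClasses.mk (z⁻¹ * b) = ConjClasses.mk a
      refine (ConjClasses.mk_eq_mk_iff_isConj.mpr (isConj_iff.mpr ⟨u, ?_⟩)).symm
      rw [← hzb, ← Subgroup.mem_center_iff.mp (inv_mem hz)]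
      group
    · intro D
      obtain ⟨d, rfl⟩ := ConjClasses.mk_surjective D
      obtain ⟨g, rfl⟩ := QuotientGroup.mk'_surjective _ d
      exact ⟨Quotient.mk _ (ConjClasses.mk g), rfl⟩
  rw [← Nat.card_eq_of_bijective _ hbij, Nat.card_eq_fintype_card, Nat.card_eq_fintype_card, mul_comm, ← h]
  exact Finset.sum_congr rfl fun z _ => by rw [← Nat.card_eq_fintype_card]; rfl

end Burnside

variable {F : Type*} [Field F] [Fintype F] {n : ℕ}

theorem card_center_sl (hn : 1 ≤ n) :
    Nat.card (Subgroup.center (Matrix.SpecialLinearGroup (Fin n) F)) = Nat.gcd n (Fintype.card F - 1) := by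
  rw [Nat.card_congr Matrix.SpecialLinearGroup.center_equiv_rootsOfUnity.toEquiv, Fintype.card_fin, max_eq_left hn]
  show Nat.card (powMonoidHom n : Fˣ →* Fˣ).ker = _
  rw [IsCyclic.card_powMonoidHom_ker, Nat.card_units, Nat.card_eq_fintype_card, Nat.gcd_comm]

/-- A class fixed by translation has an invariant tuple. -/
theorem fix_le [Fintype (DetOne F n)] [DecidableEq F[X]] (hn : 1 ≤ n) (z : Subgroup.center (Matrix.SpecialLinearGroup (Fin n) F))
    (ζ : F) (hz : z.1.1 = Matrix.scalar (Fin n) ζ) :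
    Nat.card {C : ConjClasses (Matrix.SpecialLinearGroup (Fin n) F) // trans z C = C} ≤
      ∑ h ∈ Finset.univ.filter (fun h : DetOne F n => ∀ j, scaleRoots (h.1.1 j) ζ = h.1.1 j), splitBound h.1.1 := by
  classical
  obtain ⟨key, hkey, hfib⟩ := exists_sl_key (F := F) n
  have hζ : ζ ≠ 0 := fun h0 => by
    haveI : Nonempty (Fin n) := ⟨⟨0, hn⟩⟩
    have := z.1.2
    rw [hz, h0, map_zero, Matrix.det_zero] at this
    exact zero_ne_one this
  have hmem : ∀ C, trans z C = C → key C ∈ Finset.univ.filter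
      (fun h : DetOne F n => ∀ j, scaleRoots (h.1.1 j) ζ = h.1.1 j) := fun C hC => by
    refine Finset.mem_filter.mpr ⟨Finset.mem_univ _, fun j => ?_⟩
    obtain ⟨m, p, e, ⟨hp, -, -, -⟩, hT, hc⟩ := hkey C
    obtain ⟨g, hg⟩ : ∃ g : Matrix.SpecialLinearGroup (Fin n) F, g = Quotient.out C := ⟨_, rfl⟩
    rw [← hg] at hT
    have hC' : C = ConjClasses.mk g := by rw [hg]; exact (Quotient.out_eq C).symm
    rw [hC', trans_mk] at hC
    obtain ⟨u, hu⟩ := isConj_iff.mp (ConjClasses.mk_eq_mk_iff_isConj.mp hC)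
    have hM : u.1 * (ζ • g.1) = g.1 * u.1 := by
      have := congrArg (fun A : Matrix.SpecialLinearGroup (Fin n) F => A.1) (mul_inv_eq_iff_eq_mul.mp hu)
      simp only [Matrix.SpecialLinearGroup.coe_mul, hz] at this
      rw [← this, Matrix.scalar_apply, ← Matrix.smul_eq_diagonal_mul]
    have hT' := hasType_smul (Matrix.toLin' g.1) (Units.mk0 ζ hζ) hT
    obtain ⟨φ, -⟩ : ∃ φ : Module.AEval' ((ζ : F) • Matrix.toLin' g.1) ≃ₗ[F[X]] Module.AEval' (Matrix.toLin' g.1), True :=
      ⟨LinearEquiv.ofAEval _ (Matrix.SpecialLinearGroup.toLin' u ≪≫ₗ Module.AEval'.of (Matrix.toLin' g.1)) fun v => by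
        show Module.AEval'.of _ (Matrix.toLin' u.1 ((ζ • Matrix.toLin' g.1) v)) =
          (X : F[X]) • Module.AEval'.of _ (Matrix.toLin' u.1 v)
        rw [Module.AEval'.X_smul_of]
        congr 1
        rw [← map_smul Matrix.toLin', ← LinearMap.comp_apply, ← LinearMap.comp_apply, ← Matrix.toLin'_mul, ← Matrix.toLin'_mul, hM],
        trivial⟩
    have hpz : ∀ i, Irreducible (scaleRoots (p i) ζ) ∧ (scaleRoots (p i) ζ).Monic ∧ e i ≠ 0 := fun i =>
      ⟨irreducible_scaleRoots (Units.mk0 ζ hζ) (hp i).1, (monic_scaleRoots_iff ζ).mpr (hp i).2.1, (hp i).2.2⟩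
    have he := congrFun (encode_eq_of_equiv (n := n) hpz hp hT' hT φ) j
    rw [encode_scaleRoots ζ p e j fun i => (hp i).2.1, ← hc] at he
    exact he
  haveI : Fintype (ConjClasses (Matrix.SpecialLinearGroup (Fin n) F)) := Fintype.ofFinite _
  rw [Nat.card_eq_fintype_card, Fintype.card_subtype,
    Finset.card_eq_sum_card_fiberwise (f := key) fun C hC => hmem C (Finset.mem_filter.mp hC).2]
  refine Finset.sum_le_sum fun h _ => le_trans ?_ (hfib h)
  rw [Nat.card_eq_fintype_card, Fintype.card_subtype]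
  exact Finset.card_le_card fun C hC => Finset.mem_filter.mpr ⟨Finset.mem_univ _, (Finset.mem_filter.mp hC).2⟩

theorem coeff_dvd_of_invariant {f : F[X]} {ζ : F} (h : scaleRoots f ζ = f) {i : ℕ} (hi : f.coeff i ≠ 0) :
    orderOf ζ ∣ f.natDegree - i := by
  have e := congrArg (fun p => p.coeff i) h
  simp only [coeff_scaleRoots] at e
  exact orderOf_dvd_of_pow_eq_one (mul_left_cancel₀ hi (e.trans (mul_one _).symm))

theorem dvd_of_invariant {f : F[X]} {ζ : F} (h : scaleRoots f ζ = f) (h0 : f.coeff 0 ≠ 0) :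
    orderOf ζ ∣ f.natDegree ∧ ∀ i, f.coeff i ≠ 0 → orderOf ζ ∣ i := by
  have hd : orderOf ζ ∣ f.natDegree := by simpa using coeff_dvd_of_invariant h h0
  refine ⟨hd, fun i hi => ?_⟩
  have := (Nat.dvd_sub_iff_right (le_natDegree_of_ne_zero hi) hd).mp (coeff_dvd_of_invariant h hi)
  exact this

theorem splitBound_dvd (h : Tuples F n 0 n) : splitBound h.1 ∣ Nat.gcd n (Fintype.card F - 1) := by
  letI : DecidableEq F[X] := Classical.decEq _
  refine Nat.dvd_gcd ?_ (Nat.gcd_dvd_left _ _)
  have hd : ∀ j : Fin n, splitBound h.1 ∣ ((j : ℕ) + 1) * (h.1 j).natDegree := fun j => by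
    rcases eq_or_ne (h.1 j) 1 with e | e
    · rw [e, natDegree_one, Nat.mul_zero]; exact dvd_zero _
    · exact Dvd.dvd.mul_right ((Nat.gcd_dvd_right _ _).trans (Finset.gcd_dvd (f := fun j : Fin n => (j : ℕ) + 1) (Finset.mem_filter.mpr ⟨Finset.mem_univ j, e⟩))) _
  have := Finset.dvd_sum (s := Finset.univ) fun j _ => hd j
  rwa [h.2.2.2] at this

/-- Invariant tuples are determined by their contractions. -/
theorem inv_card_le [Fintype (DetOne F n)] [DecidableEq F[X]] (ζ : F) (o : ℕ) (ho : orderOf ζ = o) (ho0 : 0 < o) (hon : o ∣ n) :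
    (Finset.univ.filter fun h : DetOne F n => ∀ j, scaleRoots (h.1.1 j) ζ = h.1.1 j).card ≤ Fintype.card F ^ (n / o) := by
  classical
  obtain ⟨w, rfl⟩ := hon
  rw [Nat.mul_div_cancel_left _ ho0]
  have hw : w ≤ o * w := Nat.le_mul_of_pos_left _ ho0
  let K := {h : DetOne F (o * w) // ∀ j, scaleRoots (h.1.1 j) ζ = h.1.1 j}
  have hd : ∀ (h : K) j, o ∣ (h.1.1.1 j).natDegree ∧ ∀ i, (h.1.1.1 j).coeff i ≠ 0 → o ∣ i := fun h j => by
    have := dvd_of_invariant (h.2 j) (h.1.1.2.1 j).2
    rwa [ho] at this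
  have hexp : ∀ (h : K) j, expand F o (contract o (h.1.1.1 j)) = h.1.1.1 j := fun h j => by
    ext i
    rw [coeff_expand ho0]
    split_ifs with hi
    · rw [coeff_contract ho0.ne', Nat.div_mul_cancel hi]
    · by_contra hc
      exact hi ((hd h j).2 i (Ne.symm hc))
  have hdeg : ∀ (h : K) j, (contract o (h.1.1.1 j)).natDegree * o = (h.1.1.1 j).natDegree := fun h j => by
    rw [← natDegree_expand, hexp]
  have hsum : ∀ h : K, ∑ j : Fin (o * w), ((j : ℕ) + 1) * (contract o (h.1.1.1 j)).natDegree = w := fun h => by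
    refine Nat.eq_of_mul_eq_mul_left ho0 ?_
    conv_rhs => rw [← h.1.1.2.2.2]
    rw [Finset.mul_sum]
    refine Finset.sum_congr rfl fun j _ => ?_
    rw [← hdeg h j]; ring
  have hmon : ∀ (h : K) j, (contract o (h.1.1.1 j)).Monic := fun h j =>
    (monic_expand_iff ho0).mp (by rw [hexp]; exact (h.1.1.2.1 j).1)
  have hbig : ∀ (h : K) (j : Fin (o * w)), w ≤ (j : ℕ) → h.1.1.1 j = 1 := fun h j hj => by
    have h1 := Finset.single_le_sum (f := fun j : Fin (o * w) => ((j : ℕ) + 1) * (contract o (h.1.1.1 j)).natDegree)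
      (fun _ _ => Nat.zero_le _) (Finset.mem_univ j)
    simp only [hsum h] at h1
    have h2 : (contract o (h.1.1.1 j)).natDegree = 0 := by
      rcases Nat.eq_zero_or_pos (contract o (h.1.1.1 j)).natDegree with e | e
      · exact e
      · have := Nat.le_mul_of_pos_right ((j : ℕ) + 1) e; omega
    exact (h.1.1.2.1 j).1.natDegree_eq_zero.mp (by rw [← hdeg h j, h2, Nat.zero_mul])
  let Φ : K → Tuples F w 0 w := fun h => ⟨fun j => contract o (h.1.1.1 (Fin.castLE hw j)), fun j => ⟨hmon h _, by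
      rw [coeff_contract ho0.ne', Nat.zero_mul]; exact (h.1.1.2.1 _).2⟩, fun j hj => absurd hj (Nat.not_lt_zero _), by
    conv_rhs => rw [← hsum h]
    refine Finset.sum_of_injOn (Fin.castLE hw) (Fin.castLE_injective hw).injOn (fun _ _ => Finset.mem_coe.mpr (Finset.mem_univ _))
      (fun j _ hj => ?_) (fun j _ => rfl)
    rw [hbig h j (not_lt.mp fun hlt => hj ⟨⟨j, hlt⟩, Finset.mem_coe.mpr (Finset.mem_univ _), rfl⟩)]
    have : contract o (1 : F[X]) = 1 := by
      ext i; rw [coeff_contract ho0.ne', coeff_one, coeff_one]; simp [ho0.ne']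
    rw [this, natDegree_one, Nat.mul_zero]⟩
  have hΦ : Function.Injective Φ := fun h g e => by
    refine Subtype.ext (Subtype.ext (Subtype.ext (funext fun j => ?_)))
    rcases Nat.lt_or_ge (j : ℕ) w with hj | hj
    · rw [← hexp h j, ← hexp g j]
      exact congrArg (expand F o) (congrFun (congrArg Subtype.val e) ⟨j, hj⟩ :)
    · rw [hbig h j hj, hbig g j hj]
  have := (card_tuples_le F w).1
  rw [← Fintype.card_subtype, ← Nat.card_eq_fintype_card]
  exact (Nat.card_le_card_of_injective Φ hΦ).trans (card_tuples_le F w).2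

theorem inv_sum_le [Fintype (DetOne F n)] [DecidableEq F[X]] (ζ : F) (o : ℕ) (ho : orderOf ζ = o) (ho0 : 0 < o) (hon : o ∣ n) :
    ∑ h ∈ Finset.univ.filter (fun h : DetOne F n => ∀ j, scaleRoots (h.1.1 j) ζ = h.1.1 j), splitBound h.1.1 ≤
      Nat.gcd n (Fintype.card F - 1) * Fintype.card F ^ (n / o) := by
  refine (Finset.sum_le_card_nsmul _ _ (Nat.gcd n (Fintype.card F - 1)) fun h _ => ?_).trans ?_
  · refine Nat.le_of_dvd (Nat.gcd_pos_of_pos_right _ ?_) (splitBound_dvd h.1)
    have := Fintype.one_lt_card (α := F); omega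
  · rw [smul_eq_mul, mul_comm]
    exact Nat.mul_le_mul_left _ (inv_card_le ζ o ho ho0 hon)

/-- Only one class type is fixed by a translation of order `n`. -/
theorem inv_sum_le_one [Fintype (DetOne F n)] [DecidableEq F[X]] (ζ : F) (ho : orderOf ζ = n) (hn : 1 ≤ n) :
    ∑ h ∈ Finset.univ.filter (fun h : DetOne F n => ∀ j, scaleRoots (h.1.1 j) ζ = h.1.1 j), splitBound h.1.1 ≤ 1 := by
  classical
  obtain ⟨m, rfl⟩ : ∃ m, n = m + 1 := ⟨n - 1, by omega⟩
  have hshape : ∀ h : DetOne F (m + 1), (∀ j, scaleRoots (h.1.1 j) ζ = h.1.1 j) →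
      (∀ j, j ≠ 0 → h.1.1 j = 1) ∧ (h.1.1 0).natDegree = m + 1 ∧
        ∀ i : Fin m, (h.1.1 0).coeff ((i : ℕ) + 1) = 0 := fun h hh => by
    have hd := fun j => dvd_of_invariant (hh j) (h.1.2.1 j).2
    simp only [ho] at hd
    have hw := h.1.2.2.2
    have h1 : ∀ j, j ≠ 0 → h.1.1 j = 1 := fun j hj => by
      refine (h.1.2.1 j).1.natDegree_eq_zero.mp ?_
      have h2 := Finset.single_le_sum (f := fun j : Fin (m + 1) => ((j : ℕ) + 1) * (h.1.1 j).natDegree)
        (fun _ _ => Nat.zero_le _) (Finset.mem_univ j)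
      simp only [hw] at h2
      rcases Nat.eq_zero_or_pos (h.1.1 j).natDegree with e | e
      · exact e
      · have h3 := Nat.le_of_dvd e (hd j).1
        have h4 : 1 ≤ (j : ℕ) := Nat.one_le_iff_ne_zero.mpr fun e' => hj (Fin.ext e')
        have h5 : 2 * (m + 1) ≤ ((j : ℕ) + 1) * (h.1.1 j).natDegree := Nat.mul_le_mul (by omega) h3
        omega
    rw [Finset.sum_eq_single 0 (fun j _ hj => by rw [h1 j hj, natDegree_one, Nat.mul_zero])
      (fun h0 => absurd (Finset.mem_univ _) h0), Fin.val_zero, Nat.zero_add, Nat.one_mul] at hw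
    refine ⟨h1, hw, fun i => by_contra fun hi => ?_⟩
    have := Nat.le_of_dvd (Nat.succ_pos _) ((hd 0).2 _ hi)
    omega
  refine (Finset.sum_le_card_nsmul _ _ 1 fun h hh => ?_).trans ?_
  · obtain ⟨-, hdeg, -⟩ := hshape h (Finset.mem_filter.mp hh).2
    refine splitBound_le_weight F _ 0 fun e => ?_
    rw [e, natDegree_one] at hdeg; exact absurd hdeg (Nat.succ_ne_zero m).symm
  rw [smul_eq_mul, mul_one]
  refine Finset.card_le_one.mpr fun h hh g hg => ?_
  obtain ⟨a1, a2, a3⟩ := hshape h (Finset.mem_filter.mp hh).2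
  obtain ⟨b1, b2, b3⟩ := hshape g (Finset.mem_filter.mp hg).2
  refine Subtype.ext (Subtype.ext (funext fun j => ?_))
  rcases eq_or_ne j 0 with rfl | hj
  · refine monic_ext F (h.1.2.1 0).1 (g.1.2.1 0).1 a2 b2 ?_ fun i => by rw [a3, b3]
    have e1 := h.2
    have e2 := g.2
    rw [detVal, Finset.prod_eq_single 0 (fun k _ hk => by rw [a1 k hk]; simp) (fun h0 => absurd (Finset.mem_univ _) h0),
      Fin.val_zero, pow_one, a2] at e1
    rw [detVal, Finset.prod_eq_single 0 (fun k _ hk => by rw [b1 k hk]; simp) (fun h0 => absurd (Finset.mem_univ _) h0),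
      Fin.val_zero, pow_one, b2] at e2
    exact mul_left_cancel₀ (pow_ne_zero _ (neg_ne_zero.mpr one_ne_zero)) (e1.trans e2.symm)
  · rw [a1 j hj, b1 j hj]

/-- The degree four case. -/
theorem inv_sum_four [Fintype (DetOne F 4)] [DecidableEq F[X]] (ζ : F) (ho : orderOf ζ = 2) :
    ∑ h ∈ Finset.univ.filter (fun h : DetOne F 4 => ∀ j, scaleRoots (h.1.1 j) ζ = h.1.1 j), splitBound h.1.1 ≤
      Fintype.card F + 4 := by
  classical
  rw [← Finset.sum_filter_add_sum_filter_not _ fun h : DetOne F 4 => h.1.1 0 ≠ 1, Finset.filter_filter, Finset.filter_filter]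
  have hd : ∀ h : DetOne F 4, (∀ j, scaleRoots (h.1.1 j) ζ = h.1.1 j) →
      (h.1.1 0 ≠ 1 → (∀ k, k ≠ 0 → h.1.1 k = 1) ∧ (h.1.1 0).natDegree = 3 + 1) ∧
      (h.1.1 0 = 1 → (∀ k, k ≠ 1 → h.1.1 k = 1) ∧ (h.1.1 1).natDegree = 1 + 1) ∧
      ∀ j i, (h.1.1 j).coeff i ≠ 0 → 2 ∣ i := fun h hh => by
    have hd := fun j => dvd_of_invariant (hh j) (h.1.2.1 j).2
    simp only [ho] at hd
    have e := h.1.2.2.2
    rw [Fin.sum_univ_four] at e
    simp at e
    have hz : ∀ j, (h.1.1 j).natDegree = 0 → h.1.1 j = 1 := fun j ej => (h.1.2.1 j).1.natDegree_eq_zero.mp ej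
    obtain ⟨a, ha⟩ := (hd 0).1
    obtain ⟨b, hb⟩ := (hd 1).1
    obtain ⟨c, hc⟩ := (hd 2).1
    obtain ⟨d, hd'⟩ := (hd 3).1
    refine ⟨fun h0 => ?_, fun h0 => ?_, fun j => (hd j).2⟩
    · have : (h.1.1 0).natDegree ≠ 0 := fun ej => h0 (hz 0 ej)
      have hb0 : b = 0 := by omega
      refine ⟨fun k hk => ?_, by omega⟩
      fin_cases k
      · exact absurd rfl hk
      · exact hz 1 (by omega)
      · exact hz 2 (by omega)
      · exact hz 3 (by omega)
    · have : (h.1.1 0).natDegree = 0 := by rw [h0, natDegree_one]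
      refine ⟨fun k hk => ?_, by omega⟩
      fin_cases k
      · exact h0
      · exact absurd rfl hk
      · exact hz 2 (by omega)
      · exact hz 3 (by omega)
  refine Nat.add_le_add ?_ ?_
  · refine (Finset.sum_le_card_nsmul _ _ 1 fun h hh => splitBound_le_weight F _ 0 (Finset.mem_filter.mp hh).2.2).trans ?_
    rw [smul_eq_mul, mul_one, ← Finset.card_univ (α := F)]
    refine Finset.card_le_card_of_injOn (fun h : DetOne F 4 => (h.1.1 0).coeff 2) (fun _ _ => Finset.mem_coe.mpr (Finset.mem_univ _)) ?_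
    intro h hh g hg e
    obtain ⟨hA, -, hcoef⟩ := hd h (Finset.mem_filter.mp (Finset.mem_coe.mp hh)).2.1
    obtain ⟨hB, -, hcoef'⟩ := hd g (Finset.mem_filter.mp (Finset.mem_coe.mp hg)).2.1
    obtain ⟨a1, a2⟩ := hA (Finset.mem_filter.mp (Finset.mem_coe.mp hh)).2.2
    obtain ⟨b1, b2⟩ := hB (Finset.mem_filter.mp (Finset.mem_coe.mp hg)).2.2
    refine Subtype.ext (Subtype.ext (funext fun j => ?_))
    rcases eq_or_ne j 0 with rfl | hj
    · refine monic_ext F (h.1.2.1 0).1 (g.1.2.1 0).1 a2 b2 ?_ fun i => ?_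
      · have e1 := h.2
        have e2 := g.2
        rw [detVal, Finset.prod_eq_single 0 (fun k _ hk => by rw [a1 k hk]; simp) (fun h0 => absurd (Finset.mem_univ _) h0),
          Fin.val_zero, pow_one, a2] at e1
        rw [detVal, Finset.prod_eq_single 0 (fun k _ hk => by rw [b1 k hk]; simp) (fun h0 => absurd (Finset.mem_univ _) h0),
          Fin.val_zero, pow_one, b2] at e2
        exact mul_left_cancel₀ (pow_ne_zero _ (neg_ne_zero.mpr one_ne_zero)) (e1.trans e2.symm)
      · rcases eq_or_ne ((i : ℕ) + 1) 2 with hi | hi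
        · rw [hi]; exact e
        · have := i.2
          have c1 : (h.1.1 0).coeff ((i : ℕ) + 1) = 0 := by_contra fun hc => hi (by have := hcoef 0 _ hc; omega)
          have c2 : (g.1.1 0).coeff ((i : ℕ) + 1) = 0 := by_contra fun hc => hi (by have := hcoef' 0 _ hc; omega)
          rw [c1, c2]
    · rw [a1 j hj, b1 j hj]
  · refine (Finset.sum_le_card_nsmul _ _ 2 fun h hh => ?_).trans ?_
    · obtain ⟨-, hB, -⟩ := hd h (Finset.mem_filter.mp hh).2.1
      obtain ⟨-, hdeg⟩ := hB (not_not.mp (Finset.mem_filter.mp hh).2.2)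
      refine splitBound_le_weight F _ 1 fun e => ?_
      rw [e, natDegree_one] at hdeg; exact absurd hdeg (by omega)
    rw [smul_eq_mul]
    refine le_trans (Nat.mul_le_mul_right 2 (le_trans (Finset.card_le_card_of_injOn (t := Polynomial.nthRootsFinset 2 (1 : F))
      (fun h : DetOne F 4 => (h.1.1 1).coeff 0) ?_ ?_) ?_)) (le_refl (2 * 2))
    · intro h hh
      obtain ⟨-, hB, -⟩ := hd h (Finset.mem_filter.mp (Finset.mem_coe.mp hh)).2.1
      obtain ⟨b1, b2⟩ := hB (not_not.mp (Finset.mem_filter.mp (Finset.mem_coe.mp hh)).2.2)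
      have e1 := h.2
      rw [detVal, Finset.prod_eq_single 1 (fun k _ hk => by rw [b1 k hk]; simp) (fun h0 => absurd (Finset.mem_univ _) h0),
        b2] at e1
      refine Finset.mem_coe.mpr ((Polynomial.mem_nthRootsFinset two_pos _).mpr ?_)
      simpa using e1
    · intro h hh g hg e
      obtain ⟨-, hA, hcoef⟩ := hd h (Finset.mem_filter.mp (Finset.mem_coe.mp hh)).2.1
      obtain ⟨-, hB, hcoef'⟩ := hd g (Finset.mem_filter.mp (Finset.mem_coe.mp hg)).2.1
      obtain ⟨a1, a2⟩ := hA (not_not.mp (Finset.mem_filter.mp (Finset.mem_coe.mp hh)).2.2)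
      obtain ⟨b1, b2⟩ := hB (not_not.mp (Finset.mem_filter.mp (Finset.mem_coe.mp hg)).2.2)
      refine Subtype.ext (Subtype.ext (funext fun j => ?_))
      rcases eq_or_ne j 1 with rfl | hj
      · refine monic_ext F (h.1.2.1 1).1 (g.1.2.1 1).1 a2 b2 e fun i => ?_
        have := i.2
        have c1 : (h.1.1 1).coeff ((i : ℕ) + 1) = 0 := by_contra fun hc => absurd (hcoef 1 _ hc) (by omega)
        have c2 : (g.1.1 1).coeff ((i : ℕ) + 1) = 0 := by_contra fun hc => absurd (hcoef' 1 _ hc) (by omega)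
        rw [c1, c2]
      · rw [a1 j hj, b1 j hj]
    · rw [Polynomial.nthRootsFinset_def]
      exact (Multiset.toFinset_card_le _).trans (Polynomial.card_nthRoots _ _)

end CfsgLib.GLClassCount
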