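import Cfsg.Agent.GLClassCount.Split

/-!
Numerical bounds for the class number of the special linear group.
-/

set_option autoImplicit false

namespace CfsgLib.GLClassCount

open Finset

theorem part_y_bound {q : ℝ} (hq : 1 < q) {y : ℝ} (hy : q * y ^ 2 = 1) (hy0 : 0 < y) (hy1 : y < 1) :
    ∀ k i, 2 ≤ i → ∀ n, ∑ w ∈ range n, bnd q k i w * y ^ w ≤ 1 / ((1 - y ^ (i - 1)) * (1 - y ^ i)) := by
  have hpos : ∀ j, j ≠ 0 → 0 < 1 - y ^ j := fun j hj => sub_pos.mpr (pow_lt_one₀ hy0.le hy1 hj)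
  intro k
  induction k with
  | zero =>
    intro i hi n
    refine le_trans (b := 1) ?_ ?_
    · rcases n with _ | n
      · simp
      · rw [sum_range_succ']; simp [bnd]
    · rw [le_div_iff₀ (mul_pos (hpos _ (by omega)) (hpos _ (by omega))), one_mul]
      exact mul_le_one₀ (by linarith [pow_nonneg hy0.le (i - 1)]) (hpos i (by omega)).le (by linarith [pow_nonneg hy0.le i])
  | succ k ih =>
    intro i hi n
    obtain ⟨j, rfl⟩ : ∃ j, i = j + 2 := ⟨i - 2, by omega⟩
    have hih := ih (j + 3) (by omega) n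
    simp only [show j + 2 - 1 = j + 1 from rfl, show j + 3 - 1 = j + 2 from rfl] at hih ⊢
    have hB : 0 ≤ ∑ v ∈ range n, bnd q k (j + 3) v * y ^ v :=
      sum_nonneg fun v _ => mul_nonneg (bnd_nonneg hq.le _ _ _) (pow_nonneg hy0.le _)
    have hle : ∑ w ∈ range n, bnd q (k + 1) (j + 2) w * y ^ w ≤
        (∑ d ∈ range n, cnt q d * y ^ ((j + 3) * d)) * ∑ v ∈ range n, bnd q k (j + 3) v * y ^ v := by
      rw [sum_mul_sum, ← sum_product']
      have h1 : ∑ w ∈ range n, bnd q (k + 1) (j + 2) w * y ^ w =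
          ∑ x ∈ (range n).sigma fun w => range (w / (j + 3) + 1),
            cnt q x.2 * y ^ ((j + 3) * x.2) * (bnd q k (j + 3) (x.1 - (j + 3) * x.2) * y ^ (x.1 - (j + 3) * x.2)) := by
        rw [sum_sigma]
        refine sum_congr rfl fun w _ => ?_
        rw [bnd, sum_mul]
        refine sum_congr rfl fun d hd => ?_
        have : (j + 3) * d ≤ w := by
          rw [mul_comm]; exact (Nat.le_div_iff_mul_le (by omega)).mp (Nat.lt_succ_iff.mp (mem_range.mp hd))
        show cnt q d * bnd q k (j + 3) (w - (j + 3) * d) * y ^ w = _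
        conv_lhs => rw [← Nat.add_sub_cancel' this, pow_add, Nat.add_sub_cancel' this]
        ring
      rw [h1, ← sum_image (g := fun x : (_ : ℕ) × ℕ => (x.2, x.1 - (j + 3) * x.2))
        (f := fun p : ℕ × ℕ => cnt q p.1 * y ^ ((j + 3) * p.1) * (bnd q k (j + 3) p.2 * y ^ p.2))]
      · refine sum_le_sum_of_subset_of_nonneg ?_ fun p _ _ =>
          mul_nonneg (mul_nonneg (cnt_nonneg hq.le _) (pow_nonneg hy0.le _)) (mul_nonneg (bnd_nonneg hq.le _ _ _) (pow_nonneg hy0.le _))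
        intro p hp
        simp only [mem_image, mem_sigma, mem_range] at hp
        obtain ⟨⟨w, d⟩, ⟨hw, hd⟩, rfl⟩ := hp
        have hdw : (j + 3) * d ≤ w := by
          rw [mul_comm]; exact (Nat.le_div_iff_mul_le (by omega)).mp (Nat.lt_succ_iff.mp hd)
        dsimp only at hw hd
        simp only [mem_product, mem_range]
        exact ⟨lt_of_le_of_lt (le_trans (Nat.le_mul_of_pos_left d (by omega)) hdw) hw, by omega⟩
      · rintro ⟨w, d⟩ hx ⟨w', d'⟩ hx' e
        simp only [mem_coe, mem_sigma, mem_range] at hx hx'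
        simp only [Prod.mk.injEq] at e
        obtain ⟨rfl, e⟩ := e
        have h1 : (j + 3) * d ≤ w := by
          rw [mul_comm]; exact (Nat.le_div_iff_mul_le (by omega)).mp (Nat.lt_succ_iff.mp hx.2)
        have h2 : (j + 3) * d ≤ w' := by
          rw [mul_comm]; exact (Nat.le_div_iff_mul_le (by omega)).mp (Nat.lt_succ_iff.mp hx'.2)
        obtain rfl : w = w' := by omega
        rfl
    have hser : (1 - y ^ (j + 1)) * ∑ d ∈ range n, cnt q d * y ^ ((j + 3) * d) ≤ 1 - y ^ (j + 3) := by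
      rcases n with _ | n
      · simp only [range_zero, sum_empty, mul_zero]; exact (hpos _ (by omega)).le
      · have : ∀ d, cnt q (d + 1) * y ^ ((j + 3) * (d + 1)) = (1 - y ^ 2) * y ^ ((j + 1) * (d + 1)) := fun d => by
          show (q - 1) * q ^ d * _ = _
          rw [show y ^ ((j + 3) * (d + 1)) = (y ^ 2) ^ d * y ^ 2 * y ^ ((j + 1) * (d + 1)) by
            rw [← pow_mul, ← pow_add, ← pow_add]; congr 1; ring]
          calc (q - 1) * q ^ d * ((y ^ 2) ^ d * y ^ 2 * y ^ ((j + 1) * (d + 1)))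
              = (q * y ^ 2) ^ d * (q * y ^ 2 - y ^ 2) * y ^ ((j + 1) * (d + 1)) := by ring
            _ = _ := by rw [hy, one_pow, one_mul]
        rw [sum_range_succ', Nat.mul_zero, pow_zero, mul_one, show cnt q 0 = 1 from rfl, sum_congr rfl fun d _ => this d,
          ← mul_sum, mul_add, mul_one, ← mul_assoc, mul_comm (1 - y ^ (j + 1)), mul_assoc]
        have hg : (1 - y ^ (j + 1)) * ∑ d ∈ range n, y ^ ((j + 1) * (d + 1)) = y ^ (j + 1) * (1 - (y ^ (j + 1)) ^ n) := by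
          rw [← mul_neg_geom_sum (y ^ (j + 1)) n, ← mul_assoc, mul_comm (y ^ (j + 1)), mul_assoc]
          congr 1
          rw [mul_sum]
          exact sum_congr rfl fun d _ => by rw [pow_mul, ← pow_succ']
        rw [hg, show y ^ (j + 3) = y ^ 2 * y ^ (j + 1) by rw [← pow_add]; congr 1; omega]
        have hz := pow_nonneg (pow_nonneg hy0.le (j + 1)) n
        have : 0 ≤ 1 - y ^ 2 := (hpos 2 (by omega)).le
        nlinarith [mul_nonneg (mul_nonneg this (pow_nonneg hy0.le (j + 1))) hz]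
    refine hle.trans ?_
    rw [le_div_iff₀ (mul_pos (hpos _ (by omega)) (hpos _ (by omega)))]
    rw [le_div_iff₀ (mul_pos (hpos _ (by omega)) (hpos _ (by omega)))] at hih
    calc (∑ d ∈ range n, cnt q d * y ^ ((j + 3) * d)) * (∑ v ∈ range n, bnd q k (j + 3) v * y ^ v) *
          ((1 - y ^ (j + 1)) * (1 - y ^ (j + 2)))
        = ((1 - y ^ (j + 1)) * ∑ d ∈ range n, cnt q d * y ^ ((j + 3) * d)) *
          ((∑ v ∈ range n, bnd q k (j + 3) v * y ^ v) * (1 - y ^ (j + 2))) := by ring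
      _ ≤ (1 - y ^ (j + 3)) * ((∑ v ∈ range n, bnd q k (j + 3) v * y ^ v) * (1 - y ^ (j + 2))) :=
          mul_le_mul_of_nonneg_right hser (mul_nonneg hB (hpos _ (by omega)).le)
      _ ≤ 1 := by linarith [hih, mul_comm (1 - y ^ (j + 3)) ((∑ v ∈ range n, bnd q k (j + 3) v * y ^ v) * (1 - y ^ (j + 2)))]

theorem bnd_one_le {q : ℝ} (hq : 1 < q) {s : ℝ} (hs : s ^ 2 = q) (hs1 : 1 < s) (k w : ℕ) :
    bnd q (k + 1) 1 w ≤ s ^ w / ((1 - s⁻¹) * (1 - s⁻¹ ^ 2)) := by
  have hs0 : 0 < s := by linarith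
  have hy0 : 0 < s⁻¹ := inv_pos.mpr hs0
  have h := part_y_bound hq (y := s⁻¹) (by rw [inv_pow, hs, mul_inv_cancel₀ (by linarith)]) hy0 (inv_lt_one_of_one_lt₀ hs1)
    k 2 le_rfl (w + 1)
  rw [show (2 : ℕ) - 1 = 1 from rfl, pow_one] at h
  rw [div_eq_mul_one_div]
  refine le_trans ?_ (mul_le_mul_of_nonneg_left h (pow_nonneg hs0.le w))
  rw [bnd, mul_sum]
  have hle : ∀ d ∈ range (w / 2 + 1), cnt q d * bnd q k 2 (w - 2 * d) ≤
      s ^ w * (bnd q k 2 (w - 2 * d) * s⁻¹ ^ (w - 2 * d)) := fun d hd => by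
    have hdw : 2 * d ≤ w := by have := mem_range.mp hd; omega
    have e : s ^ w * s⁻¹ ^ (w - 2 * d) = q ^ d := by
      conv_lhs => rw [← Nat.add_sub_cancel' hdw, Nat.add_sub_cancel_left, pow_add, mul_assoc, inv_pow,
        mul_inv_cancel₀ (pow_ne_zero _ hs0.ne'), mul_one, pow_mul, hs]
    rw [show s ^ w * (bnd q k 2 (w - 2 * d) * s⁻¹ ^ (w - 2 * d)) = q ^ d * bnd q k 2 (w - 2 * d) by rw [← e]; ring]
    refine mul_le_mul_of_nonneg_right ?_ (bnd_nonneg hq.le _ _ _)
    rcases d with _ | d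
    · exact le_rfl
    · show (q - 1) * q ^ d ≤ q ^ (d + 1)
      rw [pow_succ']; nlinarith [pow_pos (by linarith : (0 : ℝ) < q) d]
  refine (sum_le_sum hle).trans ?_
  rw [← sum_image (g := fun d : ℕ => w - 2 * d) (f := fun v => s ^ w * (bnd q k 2 v * s⁻¹ ^ v))]
  · refine sum_le_sum_of_subset_of_nonneg ?_ fun v _ _ =>
      mul_nonneg (pow_nonneg hs0.le _) (mul_nonneg (bnd_nonneg hq.le _ _ _) (pow_nonneg hy0.le _))
    intro v hv
    obtain ⟨d, -, rfl⟩ := mem_image.mp hv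
    exact mem_range.mpr (by omega)
  · intro a ha b hb e
    have := mem_range.mp ha; have := mem_range.mp hb
    simp only at e
    omega

theorem part_one_le {q : ℝ} (hq : 1 < q) (k n : ℕ) : part q k 1 n ≤ q / (q - 1) := by
  have h := excess_le_one hq k 1 n
  have hsucc : part q k 1 (n + 1) = part q k 1 n + bnd q k 1 n * q⁻¹ ^ n := sum_range_succ _ _
  have hnn : 0 ≤ bnd q k 1 n * q⁻¹ ^ n := mul_nonneg (bnd_nonneg hq.le _ _ _) (pow_nonneg (inv_nonneg.mpr (by linarith)) _)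
  rw [le_div_iff₀ (by linarith)]
  rw [pow_one, hsucc] at h
  have := mul_le_mul_of_nonneg_left h (by linarith : (0 : ℝ) ≤ q)
  rw [mul_sub, mul_add, ← mul_assoc q q⁻¹, mul_inv_cancel₀ (by linarith : q ≠ 0)] at this
  nlinarith [mul_nonneg (by linarith : (0 : ℝ) ≤ q) hnn]

theorem large_bound {q : ℝ} (hq : 3 ≤ q) (n : ℕ) (hn : 7 ≤ n) :
    q ^ (n - 1) * part q (n - 1) 1 n + (q - 1) * bnd q (n - 1) 1 n ≤ q ^ (n - 1) + 3 * q ^ (n - 2) := by
  obtain ⟨k, rfl⟩ : ∃ k, n = k + 7 := ⟨n - 7, by omega⟩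
  rw [show k + 7 - 1 = k + 6 from rfl, show k + 7 - 2 = k + 5 from rfl]
  obtain ⟨s, hs, hs0⟩ : ∃ s : ℝ, s ^ 2 = q ∧ 0 ≤ s := ⟨Real.sqrt q, Real.sq_sqrt (by linarith), Real.sqrt_nonneg q⟩
  have hs53 : 5 / 3 ≤ s := by nlinarith
  have hT : (q - 1) * bnd q (k + 6) 1 (k + 7) ≤ 3 / 2 * q ^ (k + 5) := by
    refine le_trans (mul_le_mul_of_nonneg_left (bnd_one_le (by linarith) hs (by linarith) (k + 5) (k + 7)) (by linarith)) ?_
    have hden : (1 - s⁻¹) * (1 - s⁻¹ ^ 2) = (s - 1) * (q - 1) / (s * q) := by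
      rw [← hs]; field_simp
    rw [hden, div_div_eq_mul_div, mul_div_assoc', div_le_iff₀ (mul_pos (by linarith) (by linarith))]
    rw [← hs, ← pow_mul, show 2 * (k + 5) = k + 7 + 3 + k by ring, pow_add s (k + 7 + 3) k, pow_add s (k + 7) 3]
    have hk : 1 ≤ s ^ k := one_le_pow₀ (by linarith)
    have hA : 0 ≤ (s ^ 2 - 1) * s ^ (k + 7) * s ^ 3 := by
      have : 0 ≤ s ^ 2 - 1 := by nlinarith
      positivity
    calc (s ^ 2 - 1) * (s ^ (k + 7) * (s * s ^ 2)) = (s ^ 2 - 1) * s ^ (k + 7) * s ^ 3 * 1 := by ring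
      _ ≤ (s ^ 2 - 1) * s ^ (k + 7) * s ^ 3 * (3 / 2 * (s - 1) * s ^ k) :=
          mul_le_mul_of_nonneg_left (by nlinarith) hA
      _ = 3 / 2 * (s ^ (k + 7) * s ^ 3 * s ^ k) * ((s - 1) * (s ^ 2 - 1)) := by ring
  have hU := part_one_le (q := q) (by linarith) (k + 6) (k + 7)
  have hU' : q ^ (k + 6) * part q (k + 6) 1 (k + 7) ≤ q ^ (k + 6) + 3 / 2 * q ^ (k + 5) := by
    refine le_trans (mul_le_mul_of_nonneg_left hU (by positivity)) ?_
    rw [mul_div_assoc', div_le_iff₀ (by linarith), pow_succ q (k + 5)]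
    nlinarith [pow_pos (by linarith : (0 : ℝ) < q) (k + 5)]
  linarith

open Polynomial

variable (F : Type*) [Field F] [Fintype F]

/-- Determinant-one tuples of full weight. -/
abbrev DetOne (n : ℕ) := {h : Tuples F n 0 n // detVal h.1 = 1}

theorem finite_detOne (n : ℕ) : Finite (DetOne F n) :=
  have := (card_tuples_le F n).1
  inferInstance

theorem splitBound_le_card {n : ℕ} (h : Fin n → F[X]) : splitBound h ≤ Fintype.card F - 1 :=
  Nat.le_of_dvd (by have := Fintype.one_lt_card (α := F); omega) (Nat.gcd_dvd_left _ _)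

theorem splitBound_le_weight {n : ℕ} (h : Fin n → F[X]) (j : Fin n) (hj : h j ≠ 1) : splitBound h ≤ (j : ℕ) + 1 := by
  letI : DecidableEq F[X] := Classical.decEq _
  exact Nat.le_of_dvd (Nat.succ_pos _)
    ((Nat.gcd_dvd_right _ _).trans (Finset.gcd_dvd (Finset.mem_filter.mpr ⟨Finset.mem_univ _, hj⟩)))

theorem monic_ext {f g : F[X]} {d : ℕ} (hf : f.Monic) (hg : g.Monic) (hdf : f.natDegree = d + 1) (hdg : g.natDegree = d + 1)
    (h0 : f.coeff 0 = g.coeff 0) (h : ∀ i : Fin d, f.coeff (i + 1) = g.coeff (i + 1)) : f = g := by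
  ext i
  rcases lt_trichotomy i (d + 1) with hi | rfl | hi
  · rcases i with _ | j
    · exact h0
    · exact h ⟨j, by omega⟩
  · conv_lhs => rw [← hdf, hf.coeff_natDegree]
    conv_rhs => rw [← hdg, hg.coeff_natDegree]
  · rw [coeff_eq_zero_of_natDegree_lt (by omega), coeff_eq_zero_of_natDegree_lt (by omega)]

/-- Classes with a non-trivial cyclic part, and the others. -/
theorem sum_split_le (n : ℕ) (hn : 1 ≤ n) [Fintype (DetOne F n)] [DecidableEq F[X]] :
    (∑ h : DetOne F n, (splitBound h.1.1 : ℝ)) ≤ (Fintype.card F : ℝ) ^ (n - 1) * part (Fintype.card F : ℝ) (n - 1) 1 n +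
      ∑ h ∈ Finset.univ.filter (fun h : DetOne F n => h.1.1 ⟨0, hn⟩ = 1), (splitBound h.1.1 : ℝ) := by
  classical
  rw [← Finset.sum_filter_not_add_sum_filter Finset.univ (fun h : DetOne F n => h.1.1 ⟨0, hn⟩ = 1), add_le_add_iff_right]
  obtain ⟨j₀, hj₀⟩ : ∃ j₀ : Fin n, j₀ = ⟨0, hn⟩ := ⟨_, rfl⟩
  rw [← hj₀]
  have hone : ∀ h ∈ Finset.univ.filter (fun h : DetOne F n => ¬ h.1.1 j₀ = 1), (splitBound h.1.1 : ℝ) ≤ 1 := fun h hh => by
    have := splitBound_le_weight F h.1.1 j₀ (Finset.mem_filter.mp hh).2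
    rw [hj₀] at this
    exact_mod_cast this
  refine (Finset.sum_le_sum hone).trans ?_
  rw [Finset.sum_const, nsmul_eq_mul, mul_one]
  have hT := fun w => tuples_bound F n (n - 1) 1 w (by omega)
  have : ∀ w, Finite (Tuples F n 1 w) := fun w => (hT w).1
  let T := Σ d : Fin n, (Fin d → F) × Tuples F n 1 (n - 1 - d)
  let S := {h : DetOne F n // ¬ h.1.1 j₀ = 1}
  have hdeg : ∀ h : S, 1 ≤ (h.1.1.1 j₀).natDegree := fun h => by
    by_contra hc
    exact h.2 ((h.1.1.2.1 j₀).1.natDegree_eq_zero.mp (by omega))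
  have hsum : ∀ h : S, (h.1.1.1 j₀).natDegree +
      ∑ j : Fin n, ((j : ℕ) + 1) * (Function.update h.1.1.1 j₀ 1 j).natDegree = n := fun h => by
    conv_rhs => rw [← h.1.1.2.2.2]
    rw [← Finset.add_sum_erase _ _ (Finset.mem_univ j₀), ← Finset.add_sum_erase _ _ (Finset.mem_univ j₀),
      Function.update_self, natDegree_one, Nat.mul_zero, Nat.zero_add,
      show ((j₀ : Fin n) : ℕ) + 1 = 1 by rw [hj₀], Nat.one_mul]
    refine congrArg _ (Finset.sum_congr rfl fun j hj => ?_)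
    rw [Function.update_of_ne (Finset.ne_of_mem_erase hj)]
  have hlt : ∀ h : S, (h.1.1.1 j₀).natDegree - 1 < n := fun h => by have := hsum h; have := hdeg h; omega
  let Φ : S → T := fun h => ⟨⟨_, hlt h⟩, fun i => (h.1.1.1 j₀).coeff (i + 1), ⟨Function.update h.1.1.1 j₀ 1, fun j => by
      rcases eq_or_ne j j₀ with rfl | hj
      · rw [Function.update_self]; exact ⟨monic_one, by simp⟩
      · rw [Function.update_of_ne hj]; exact h.1.1.2.1 j, fun j hj => by
      rw [show j = j₀ from Fin.ext (by rw [hj₀]; show (j : ℕ) = 0; omega), Function.update_self], by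
      have := hsum h; have := hdeg h; dsimp only; omega⟩⟩
  have hdv : ∀ h : S, (-1) ^ (h.1.1.1 j₀).natDegree * (h.1.1.1 j₀).coeff 0 * detVal (Function.update h.1.1.1 j₀ 1) = 1 := fun h => by
    refine Eq.trans ?_ h.1.2
    simp only [detVal]
    rw [← Finset.mul_prod_erase _ _ (Finset.mem_univ j₀), ← Finset.mul_prod_erase _ _ (Finset.mem_univ j₀)]
    simp only [Function.update_self, natDegree_one, pow_zero, coeff_one_zero, one_mul, one_pow]
    rw [show ((j₀ : Fin n) : ℕ) + 1 = 1 by rw [hj₀], pow_one]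
    congr 1
    exact Finset.prod_congr rfl fun j hj => by rw [Function.update_of_ne (Finset.ne_of_mem_erase hj)]
  have hinj : Function.Injective Φ := fun h g e => by
    have e1 : (h.1.1.1 j₀).natDegree = (g.1.1.1 j₀).natDegree := by
      have := congrArg (fun t : T => (t.1 : ℕ)) e
      have := hdeg h; have := hdeg g
      simp only [Φ] at *
      omega
    have e2 : Function.update h.1.1.1 j₀ 1 = Function.update g.1.1.1 j₀ 1 := congrArg (fun t : T => t.2.2.1) e
    have e3 : ∀ i, i < (h.1.1.1 j₀).natDegree - 1 → (h.1.1.1 j₀).coeff (i + 1) = (g.1.1.1 j₀).coeff (i + 1) := fun i hi => by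
      have := congrArg (fun t : T => if hh : i < (t.1 : ℕ) then t.2.1 ⟨i, hh⟩ else 0) e
      simp only [Φ] at this
      rwa [dif_pos hi, dif_pos (by rwa [← e1])] at this
    have hh := hdv h
    have hg := hdv g
    rw [← e1, ← e2] at hg
    have hne : detVal (Function.update h.1.1.1 j₀ 1) ≠ 0 := fun z => by rw [z, mul_zero] at hh; exact zero_ne_one hh
    have hc : (h.1.1.1 j₀).coeff 0 = (g.1.1.1 j₀).coeff 0 :=
      mul_left_cancel₀ (pow_ne_zero _ (neg_ne_zero.mpr one_ne_zero)) (mul_right_cancel₀ hne (hh.trans hg.symm))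
    refine Subtype.ext (Subtype.ext (Subtype.ext (funext fun j => ?_)))
    rcases eq_or_ne j j₀ with rfl | hj
    · exact monic_ext F (h.1.1.2.1 j).1 (g.1.1.2.1 j).1 (d := (h.1.1.1 j).natDegree - 1) (by have := hdeg h; omega)
        (by have := hdeg h; omega) hc fun i => e3 i i.2
    · have := congrFun e2 j
      rwa [Function.update_of_ne hj, Function.update_of_ne hj] at this
  have hle := Nat.card_le_card_of_injective Φ hinj
  rw [show (Finset.univ.filter fun h : DetOne F n => ¬ h.1.1 j₀ = 1).card = Nat.card S by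
    rw [Nat.card_eq_fintype_card, Fintype.card_subtype]]
  refine le_trans (Nat.cast_le.mpr hle) ?_
  rw [Nat.card_sigma, Nat.cast_sum, part, Finset.mul_sum, ← Finset.sum_range_reflect, ← Fin.sum_univ_eq_sum_range]
  refine Finset.sum_le_sum fun d _ => ?_
  rw [Nat.card_prod, Nat.card_fun, Nat.card_eq_fintype_card (α := F), Nat.card_eq_fintype_card (α := Fin (d : ℕ)),
    Fintype.card_fin, Nat.cast_mul, Nat.cast_pow]
  have hd := d.2
  have e4 : (Fintype.card F : ℝ) ^ (n - 1) * (bnd (Fintype.card F : ℝ) (n - 1) 1 (n - 1 - d) * (Fintype.card F : ℝ)⁻¹ ^ (n - 1 - (d : ℕ))) =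
      (Fintype.card F : ℝ) ^ (d : ℕ) * bnd (Fintype.card F : ℝ) (n - 1) 1 (n - 1 - d) := by
    conv_lhs => arg 1; rw [show n - 1 = (d : ℕ) + (n - 1 - d) by omega, pow_add]
    rw [inv_pow]
    field_simp
  rw [e4]
  exact mul_le_mul_of_nonneg_left (hT _).2 (by positivity)

theorem trivial_part_le (n : ℕ) (hn : 1 ≤ n) [Fintype (DetOne F n)] [DecidableEq F[X]] :
    ∑ h ∈ Finset.univ.filter (fun h : DetOne F n => h.1.1 ⟨0, hn⟩ = 1), (splitBound h.1.1 : ℝ) ≤
      ((Fintype.card F : ℝ) - 1) * bnd (Fintype.card F : ℝ) (n - 1) 1 n := by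
  classical
  refine (Finset.sum_le_card_nsmul _ _ ((Fintype.card F : ℝ) - 1) fun h _ => ?_).trans ?_
  · have h1 := (Nat.cast_le (α := ℝ)).mpr (splitBound_le_card F h.1.1)
    rwa [Nat.cast_sub Fintype.card_pos, Nat.cast_one] at h1
  rw [nsmul_eq_mul, mul_comm]
  refine mul_le_mul_of_nonneg_left ?_ (sub_nonneg.mpr (by exact_mod_cast Fintype.card_pos))
  have hT := tuples_bound F n (n - 1) 1 n (by omega)
  have := hT.1
  refine le_trans ?_ hT.2
  have hmem : ∀ h : {h : DetOne F n // h.1.1 ⟨0, hn⟩ = 1}, ∀ j : Fin n, (j : ℕ) < 1 → h.1.1.1 j = 1 := fun h j hj => by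
    rw [show j = ⟨0, hn⟩ from Fin.ext (by show (j : ℕ) = 0; omega)]; exact h.2
  rw [← Fintype.card_subtype, ← Nat.card_eq_fintype_card, Nat.cast_le]
  refine Nat.card_le_card_of_injective
    (fun h => (⟨h.1.1.1, h.1.1.2.1, hmem h, h.1.1.2.2.2⟩ : Tuples F n 1 n)) fun h g e => ?_
  exact Subtype.ext (Subtype.ext (Subtype.ext (congrArg Subtype.val e :)))

/-- Tuples concentrated at one index. -/
theorem single_count {n : ℕ} (j : Fin n) (d : ℕ) [Fintype (DetOne F n)] [DecidableEq F[X]] :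
    (Finset.univ.filter fun h : DetOne F n => (∀ k, k ≠ j → h.1.1 k = 1) ∧ (h.1.1 j).natDegree = d + 1).card ≤
      ((j : ℕ) + 1) * Fintype.card F ^ d := by
  classical
  let R := Polynomial.nthRootsFinset ((j : ℕ) + 1) (1 : F)
  let φ : {h : DetOne F n // (∀ k, k ≠ j → h.1.1 k = 1) ∧ (h.1.1 j).natDegree = d + 1} → R × (Fin d → F) :=
    fun h => (⟨(-1) ^ (d + 1) * (h.1.1.1 j).coeff 0, (Polynomial.mem_nthRootsFinset (Nat.succ_pos _) _).mpr (by
      have h1 := h.1.2
      rw [detVal, Finset.prod_eq_single j (fun k _ hk => by rw [h.2.1 k hk]; simp) (fun hj => absurd (Finset.mem_univ j) hj),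
        h.2.2] at h1
      exact h1)⟩, fun i => (h.1.1.1 j).coeff (i + 1))
  have hφ : Function.Injective φ := fun h g e => by
    simp only [φ, Prod.mk.injEq, Subtype.mk.injEq] at e
    refine Subtype.ext (Subtype.ext (Subtype.ext (funext fun k => ?_)))
    rcases eq_or_ne k j with rfl | hk
    · exact monic_ext F (h.1.1.2.1 k).1 (g.1.1.2.1 k).1 h.2.2 g.2.2
        (mul_left_cancel₀ (pow_ne_zero _ (neg_ne_zero.mpr one_ne_zero)) e.1) (congrFun e.2)
    · rw [h.2.1 k hk, g.2.1 k hk]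
  rw [← Fintype.card_subtype, ← Nat.card_eq_fintype_card]
  refine (Nat.card_le_card_of_injective φ hφ).trans ?_
  rw [Nat.card_prod, Nat.card_fun, Nat.card_eq_fintype_card (α := Fin d), Fintype.card_fin,
    Nat.card_eq_fintype_card (α := F), Nat.card_eq_fintype_card (α := R), Fintype.card_coe]
  refine Nat.mul_le_mul_right _ ?_
  show (Polynomial.nthRootsFinset _ _).card ≤ _
  rw [Polynomial.nthRootsFinset_def]
  exact (Multiset.toFinset_card_le _).trans (Polynomial.card_nthRoots _ _)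

end CfsgLib.GLClassCount
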