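import Cfsg.Agent.GLClassCount.Tuples

/-!
Small values of the tuple count with parts at least two.
-/

set_option autoImplicit false

namespace CfsgLib.GLClassCount

open Finset

theorem bnd_low (q : ℝ) : ∀ k i w, w ≤ i → bnd q k i w = if w = 0 then 1 else 0
  | 0, _, _, _ => by rw [bnd]
  | k + 1, i, w, h => by
    rw [bnd, Nat.div_eq_of_lt (by omega)]
    simp [cnt, bnd_low q k (i + 1) w (by omega)]

theorem bnd_mid (q : ℝ) : ∀ k i w, i < w → w ≤ 2 * i + 1 → w ≤ k + i → bnd q k i w = q - 1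
  | 0, i, w, h1, _, h3 => by omega
  | k + 1, i, w, h1, h2, h3 => by
    have hd : w / (i + 1) = 1 := by
      rw [Nat.div_eq_iff (by omega)]; constructor <;> omega
    rw [bnd, hd]
    simp only [sum_range_succ, sum_range_zero, zero_add, Nat.mul_zero, Nat.sub_zero, Nat.mul_one]
    rcases Nat.lt_or_ge (i + 1) w with h | h
    · rw [bnd_mid q k (i + 1) w h (by omega) (by omega), bnd_low q k (i + 1) (w - (i + 1)) (by omega), if_neg (by omega)]
      simp [cnt]
    · obtain rfl : w = i + 1 := by omega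
      rw [bnd_low q k (i + 1) (i + 1) le_rfl, Nat.sub_self, bnd_low q k (i + 1) 0 (Nat.zero_le _)]
      simp [cnt]

theorem bnd_two_six (q : ℝ) (k : ℕ) (hk : 4 ≤ k) : bnd q k 2 6 = q ^ 2 - 1 := by
  obtain ⟨k, rfl⟩ : ∃ k', k = k' + 1 := ⟨k - 1, by omega⟩
  rw [bnd]
  simp only [show 6 / (2 + 1) + 1 = 3 from rfl, sum_range_succ, sum_range_zero, zero_add, Nat.reduceAdd, Nat.reduceMul, Nat.reduceSub]
  rw [bnd_mid q k 3 6 (by omega) (by omega) (by omega), bnd_low q k 3 3 le_rfl, bnd_low q k 3 0 (by omega)]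
  simp [cnt]
  ring

theorem bnd_one_vals (q : ℝ) (k : ℕ) :
    bnd q k 1 0 = 1 ∧ bnd q k 1 1 = 0 ∧ (1 ≤ k → bnd q k 1 2 = q - 1) ∧ (2 ≤ k → bnd q k 1 3 = q - 1) ∧
    (3 ≤ k → bnd q k 1 4 = q ^ 2 - 1) ∧ (4 ≤ k → bnd q k 1 5 = q ^ 2 - q) ∧
    (5 ≤ k → bnd q k 1 6 = q ^ 3 + q ^ 2 - 2 * q) := by
  refine ⟨by rw [bnd_low q k 1 0 (by omega), if_pos rfl], by rw [bnd_low q k 1 1 le_rfl, if_neg one_ne_zero],
    fun h => bnd_mid q k 1 2 (by omega) (by omega) (by omega), fun h => bnd_mid q k 1 3 (by omega) (by omega) (by omega),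
    fun h => ?_, fun h => ?_, fun h => ?_⟩
  · obtain ⟨k, rfl⟩ : ∃ k', k = k' + 1 := ⟨k - 1, by omega⟩
    rw [bnd]
    simp only [show 4 / (1 + 1) + 1 = 3 from rfl, sum_range_succ, sum_range_zero, zero_add, Nat.reduceAdd, Nat.reduceMul, Nat.reduceSub]
    rw [bnd_mid q k 2 4 (by omega) (by omega) (by omega), bnd_low q k 2 2 le_rfl, bnd_low q k 2 0 (by omega)]
    simp [cnt]
    ring
  · obtain ⟨k, rfl⟩ : ∃ k', k = k' + 1 := ⟨k - 1, by omega⟩
    rw [bnd]
    simp only [show 5 / (1 + 1) + 1 = 3 from rfl, sum_range_succ, sum_range_zero, zero_add, Nat.reduceAdd, Nat.reduceMul, Nat.reduceSub]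
    rw [bnd_mid q k 2 5 (by omega) (by omega) (by omega), bnd_mid q k 2 3 (by omega) (by omega) (by omega),
      bnd_low q k 2 1 (by omega)]
    simp [cnt]
    ring
  · obtain ⟨k, rfl⟩ : ∃ k', k = k' + 1 := ⟨k - 1, by omega⟩
    rw [bnd]
    simp only [show 6 / (1 + 1) + 1 = 4 from rfl, sum_range_succ, sum_range_zero, zero_add, Nat.reduceAdd, Nat.reduceMul, Nat.reduceSub]
    rw [bnd_two_six q k (by omega), bnd_mid q k 2 4 (by omega) (by omega) (by omega), bnd_low q k 2 2 le_rfl,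
      bnd_low q k 2 0 (by omega)]
    simp [cnt]
    ring

end CfsgLib.GLClassCount
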